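import Cfsg.Agent.Constrained.Fitting
import Cfsg.Agent.MaxCentralizers.Members
import Cfsg.Agent.PGroup.Commutator
import Cfsg.Agent.Eq.Def_Solvable

/-!
Left-normed commutator values and coprime action: the property `Cent` (a value centralises every
coprime subgroup it normalises) and the Fitting criterion used with it.
-/

set_option autoImplicit false

open scoped commutatorElement

namespace CfsgLib.CommValues

open Cfsg

variable {G : Type*} [Group G]

/-- Left-normed commutator values of length `k + 1` in elements of `P`. -/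
def Val (P : Subgroup G) : ℕ → Set G
  | 0 => (P : Set G)
  | k + 1 => {x | ∃ v ∈ Val P k, ∃ g ∈ P, x = ⁅v, g⁆}

/-- `[w, z, …, z]` with `n` entries `z`. -/
def itc (w z : G) : ℕ → G
  | 0 => w
  | n + 1 => ⁅itc w z n, z⁆

theorem val_subset (P : Subgroup G) (k : ℕ) : Val P k ⊆ (P : Set G) := by
  induction k with
  | zero => exact subset_rfl
  | succ k ih =>
    rintro _ ⟨v, hv, g, hg, rfl⟩
    exact mul_mem (mul_mem (mul_mem (ih hv) hg) (inv_mem (ih hv))) (inv_mem hg)

theorem val_mono {P Q : Subgroup G} (h : P ≤ Q) (k : ℕ) : Val P k ⊆ Val Q k := by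
  induction k with
  | zero => exact h
  | succ k ih =>
    rintro _ ⟨v, hv, g, hg, rfl⟩
    exact ⟨v, ih hv, g, h hg, rfl⟩

theorem map_mem_val {H : Type*} [Group H] (f : H →* G) {P : Subgroup H} {Q : Subgroup G}
    (h : ∀ x ∈ P, f x ∈ Q) {k : ℕ} {x : H} (hx : x ∈ Val P k) : f x ∈ Val Q k := by
  induction k generalizing x with
  | zero => exact h x hx
  | succ k ih =>
    obtain ⟨v, hv, g, hg, rfl⟩ := hx
    exact ⟨f v, ih hv, f g, h g hg, map_commutatorElement f v g⟩

theorem itc_mem_val {P : Subgroup G} {w z : G} (hw : w ∈ P) (hz : z ∈ P) (k : ℕ) :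
    itc w z k ∈ Val P k := by
  induction k with
  | zero => exact hw
  | succ k ih => exact ⟨_, ih, z, hz, rfl⟩

theorem map_itc {H : Type*} [Group H] (f : G →* H) (w z : G) (k : ℕ) :
    f (itc w z k) = itc (f w) (f z) k := by
  induction k with
  | zero => rfl
  | succ k ih => rw [itc, itc, map_commutatorElement, ih]

theorem itc_mem {W : Subgroup G} {w z : G} (hw : w ∈ W) (hn : ∀ a ∈ W, z * a * z⁻¹ ∈ W) (k : ℕ) :
    itc w z k ∈ W := by
  induction k with
  | zero => exact hw
  | succ k ih =>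
    rw [itc, show ⁅itc w z k, z⁆ = itc w z k * (z * (itc w z k)⁻¹ * z⁻¹) by
      simp only [commutatorElement_def]; group]
    exact mul_mem ih (hn _ (inv_mem ih))

/-- A coprime action in which iterated commutators vanish is trivial. -/
theorem commute_of_itc_eq_one {W : Subgroup G} {w z : G} (hw : w ∈ W)
    (hn : ∀ a ∈ W, z * a * z⁻¹ ∈ W) (hco : ∀ a ∈ W, (orderOf a).Coprime (orderOf z)) (K : ℕ)
    (hK : itc w z K = 1) : Commute w z := by
  induction K with
  | zero => rw [show w = 1 from hK]; exact Commute.one_left z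
  | succ K ih =>
    have hc : Commute (itc w z K) z := commutatorElement_eq_one_iff_mul_comm.1 hK
    cases K with
    | zero => exact hc
    | succ j =>
      refine ih ?_
      have h1 : ⁅itc w z j, z⁆ ^ orderOf z = 1 := by
        rw [← CfsgLib.PGroup.commutatorElement_pow_right hc, pow_orderOf_eq_one,
          commutatorElement_one_right]
      have hmem : itc w z (j + 1) ∈ W := itc_mem hw hn _
      refine orderOf_eq_one_iff.1 (Nat.dvd_one.1 ?_)
      have h2 : orderOf (itc w z (j + 1)) ∣ orderOf z := orderOf_dvd_of_pow_eq_one h1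
      exact Nat.dvd_one.2 ((hco _ hmem).eq_one_of_dvd h2)

/-- A value centralises every coprime subgroup it normalises. -/
def Cent (k : ℕ) (G : Type*) [Group G] : Prop :=
  ∀ x ∈ Val (⊤ : Subgroup G) k, ∀ W : Subgroup G, (∀ a ∈ W, x * a * x⁻¹ ∈ W) →
    (∀ a ∈ W, (orderOf a).Coprime (orderOf x)) → ∀ a ∈ W, Commute a x

theorem Cent.subgroup {k : ℕ} (h : Cent k G) (H : Subgroup G) : Cent k H := by
  intro x hx W hn hco a ha
  have hxG : (x : G) ∈ Val (⊤ : Subgroup G) k := map_mem_val H.subtype (fun _ _ => Subgroup.mem_top _) hx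
  have h1 := h x hxG (W.map H.subtype) ?_ ?_ a ⟨a, ha, rfl⟩
  · exact Subtype.ext h1
  · rintro _ ⟨b, hb, rfl⟩
    exact ⟨x * b * x⁻¹, hn b hb, rfl⟩
  · rintro _ ⟨b, hb, rfl⟩
    rw [Subgroup.subtype_apply, Subgroup.orderOf_coe, Subgroup.orderOf_coe]
    exact hco b hb

/-- The order condition gives `Cent`. -/
theorem cent_of_orders {k : ℕ}
    (h : ∀ x ∈ Val (⊤ : Subgroup G) k, ∀ y ∈ Val (⊤ : Subgroup G) k,
      (orderOf x).Coprime (orderOf y) →
        (∀ r : ℕ, r.Prime → r ∣ orderOf x * orderOf y → r ∣ orderOf (x * y)) ∨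
          orderOf x * orderOf y ≤ orderOf (x * y))
    (hfin : ∀ a : G, 0 < orderOf a) : Cent k G := by
  intro x hx W hn hco a ha
  have key : ∀ u : G, ⁅u, x⁆ ∈ Val (⊤ : Subgroup G) k → ⁅u, x⁆ ∈ W → ⁅u, x⁆ = 1 := by
    intro u hv hW
    have hxy : orderOf (⁅u, x⁆ * x) = orderOf x := by
      rw [show ⁅u, x⁆ * x = MulAut.conj u x by simp [commutatorElement_def]]
      exact MulEquiv.orderOf_eq (MulAut.conj u) x
    have hc := hco _ hW
    rcases h _ hv x hx hc with h1 | h1
    · by_contra hne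
      obtain ⟨r, hr, hrd⟩ := Nat.exists_prime_and_dvd (fun e => hne (orderOf_eq_one_iff.1 e))
      have h2 := h1 r hr (dvd_mul_of_dvd_left hrd _)
      rw [hxy] at h2
      exact hr.not_dvd_one (hc ▸ Nat.dvd_gcd hrd h2)
    · rw [hxy] at h1
      have h2 := hfin x
      have h3 := hfin ⁅u, x⁆
      exact orderOf_eq_one_iff.1 (by nlinarith)
  cases k with
  | zero =>
    refine commute_of_itc_eq_one ha hn hco 1 ?_
    exact key a (Subgroup.mem_top _) (itc_mem ha hn 1)
  | succ k =>
    exact commute_of_itc_eq_one ha hn hco (k + 1)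
      (key _ (itc_mem_val (Subgroup.mem_top _) (Subgroup.mem_top _) (k + 1)) (itc_mem ha hn (k + 1)))

section Powers

variable [Finite G]

/-- A power of prime power order with the same image. -/
theorem exists_part {H : Type*} [Group H] (π : G →* H) (n : G) {q : ℕ} (hq : q.Prime)
    (himg : ∃ j, π n ^ q ^ j = 1) :
    ∃ e : ℕ, (∃ i, (n ^ e) ^ q ^ i = 1) ∧ π (n ^ e) = π n := by
  obtain ⟨a, b, hb, hab⟩ := Nat.exists_eq_pow_mul_and_not_dvd (orderOf_pos n).ne' q hq.ne_one
  obtain ⟨j, hj⟩ := himg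
  obtain ⟨e, he, he1⟩ := Nat.chineseRemainder ((hq.coprime_iff_not_dvd.2 hb).pow_left j) 1 0
  refine ⟨e, ⟨a, ?_⟩, ?_⟩
  · rw [← pow_mul]
    refine orderOf_dvd_iff_pow_eq_one.1 ?_
    rw [hab, mul_comm e]
    exact mul_dvd_mul_left _ (Nat.modEq_zero_iff_dvd.1 he1)
  · rw [map_pow]
    conv_rhs => rw [← pow_one (π n)]
    exact pow_eq_pow_iff_modEq.2 (he.of_dvd (orderOf_dvd_of_pow_eq_one hj))

theorem coprime_of_pow {q r : ℕ} {a b : G} (h : q.Coprime r) (ha : ∃ i, a ^ q ^ i = 1)
    (hb : ∃ i, b ^ r ^ i = 1) : (orderOf a).Coprime (orderOf b) := by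
  obtain ⟨i, hi⟩ := ha
  obtain ⟨j, hj⟩ := hb
  exact ((h.pow i j).coprime_dvd_left (orderOf_dvd_of_pow_eq_one hi)).coprime_dvd_right
    (orderOf_dvd_of_pow_eq_one hj)

theorem mem_pCore_of_fitting {p : ℕ} [Fact p.Prime] {x : G}
    (hx : x ∈ fittingSubgroup G) (ha : ∃ i, x ^ p ^ i = 1) : x ∈ pCore p G := by
  obtain ⟨i, hi⟩ := ha
  obtain ⟨a, -, ha⟩ := (Nat.dvd_prime_pow (Fact.out : p.Prime)).1 (orderOf_dvd_of_pow_eq_one hi)
  have hN : Group.IsNilpotent ↥(fittingSubgroup G) := CfsgLib.Constrained.isNilpotent_fitting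
  have hZ : IsPGroup p ↥(Subgroup.zpowers (⟨x, hx⟩ : ↥(fittingSubgroup G))) := by
    refine IsPGroup.of_card (n := a) ?_
    rw [Nat.card_zpowers, ← Subgroup.orderOf_coe]
    exact ha
  obtain ⟨Q, hQ⟩ := hZ.exists_le_sylow
  exact CfsgLib.Constrained.map_sylow_le_pCore inferInstance hN Q
    ⟨⟨x, hx⟩, hQ (Subgroup.mem_zpowers _), rfl⟩

/-- Centraliser of all cores for primes other than `p`. -/
def coreCent (p : ℕ) (G : Type*) [Group G] : Subgroup G :=
  ⨅ r : {r : ℕ // r.Prime ∧ r ≠ p}, Subgroup.centralizer (pCore r.1 G : Set G)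

omit [Finite G] in
theorem coreCent_normal (p : ℕ) : (coreCent p G).Normal :=
  Subgroup.normal_iInf_normal fun r =>
    haveI := Cfsg.pCore_normal r.1 G
    inferInstance

omit [Finite G] in
theorem mem_coreCent {p : ℕ} {x : G} :
    x ∈ coreCent p G ↔ ∀ r : ℕ, r.Prime → r ≠ p → ∀ a ∈ pCore r G, Commute a x := by
  simp only [coreCent, Subgroup.mem_iInf, Subtype.forall, Subgroup.mem_centralizer_iff,
    SetLike.mem_coe]
  exact ⟨fun h r hr hrp => h r ⟨hr, hrp⟩, fun h r hr => h r hr.1 hr.2⟩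

/-- A normal subgroup which is a `p`-group modulo `F(G)` and centralises the cores for the other
primes lies in `F(G)`. -/
theorem le_fitting_of_coreCent {p : ℕ} (hp : p.Prime) {D : Subgroup G} [D.Normal]
    (hD : D ≤ coreCent p G) (hF : ∀ a ∈ D, ∃ i, a ^ p ^ i ∈ fittingSubgroup G) :
    D ≤ fittingSubgroup G := by
  refine CfsgLib.Constrained.le_fitting inferInstance ?_
  apply Group.of_quotient_center_nilpotent
  haveI : Fact p.Prime := ⟨hp⟩
  refine (IsPGroup.isNilpotent (p := p) ?_)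
  refine IsPGroup.of_card (n := (Subgroup.center ↥D).index.primeFactorsList.length) ?_
  rw [← Subgroup.index_eq_card]
  refine Nat.eq_prime_pow_of_unique_prime_dvd Subgroup.index_ne_zero_of_finite
    fun {r} hr hd => ?_
  by_contra hrp
  haveI := Fact.mk hr
  let P : Sylow r ↥D := default
  refine P.not_dvd_index (hd.trans (Subgroup.index_dvd_of_le ?_))
  intro y hy
  obtain ⟨j, hj⟩ := P.isPGroup' ⟨y, hy⟩
  have hj' : y ^ r ^ j = 1 := by simpa using congrArg Subtype.val hj
  have hyr : (y : G) ^ r ^ j = 1 := by simpa using congrArg Subtype.val hj'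
  obtain ⟨i, hi⟩ := hF y y.2
  obtain ⟨e, he⟩ := exists_pow_eq_self_of_coprime (x := (y : G)) (n := p ^ i)
    ((((Nat.coprime_primes hp hr).2 (Ne.symm hrp)).pow i j).coprime_dvd_right
      (orderOf_dvd_of_pow_eq_one hyr))
  have hyF : (y : G) ∈ fittingSubgroup G := he ▸ pow_mem hi e
  rw [Subgroup.mem_center_iff]
  intro z
  exact Subtype.ext ((mem_coreCent.1 (hD z.2)) r hr hrp _ (mem_pCore_of_fitting hyF ⟨j, hyr⟩)).symm.eq

end Powers

/-- The lower central series is generated by values. -/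
theorem lcs_le_closure_val (P : Subgroup G) (k : ℕ) :
    P.lowerCentralSeries k ≤ Subgroup.closure (Val P k) := by
  induction k with
  | zero => exact fun a ha => Subgroup.subset_closure ha
  | succ k ih =>
    have hconj : ∀ (k : ℕ) (g : G), g ∈ P → ∀ x ∈ Val P k, g * x * g⁻¹ ∈ Val P k := by
      intro k
      induction k with
      | zero => exact fun g hg x hx => mul_mem (mul_mem hg hx) (inv_mem hg)
      | succ k ih =>
        rintro g hg _ ⟨v, hv, h, hh, rfl⟩
        exact ⟨g * v * g⁻¹, ih g hg v hv, g * h * g⁻¹, mul_mem (mul_mem hg hh) (inv_mem hg),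
          by simp only [commutatorElement_def]; group⟩
    rw [Subgroup.lowerCentralSeries_succ]
    refine (Subgroup.commutator_mono ih le_rfl).trans ?_
    set N := Subgroup.closure (Val P (k + 1))
    have hNP : ∀ g ∈ P, ∀ x ∈ N, g * x * g⁻¹ ∈ N := fun g hg x hx => by
      have hle : N ≤ N.comap (MulAut.conj g).toMonoidHom :=
        (Subgroup.closure_le _).2 fun y hy => Subgroup.subset_closure (hconj _ g hg y hy)
      exact hle hx
    rw [Subgroup.commutator_le]
    intro a ha b hb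
    induction ha using Subgroup.closure_induction generalizing b with
    | mem v hv => exact Subgroup.subset_closure ⟨v, hv, b, hb, rfl⟩
    | one => rw [commutatorElement_one_left]; exact one_mem _
    | mul u v hu hv ihu ihv =>
      have huP : u ∈ P := (Subgroup.closure_le P).2 (val_subset P k) hu
      rw [show ⁅u * v, b⁆ = u * ⁅v, b⁆ * u⁻¹ * ⁅u, b⁆ by simp only [commutatorElement_def]; group]
      exact mul_mem (hNP u huP _ (ihv b hb)) (ihu b hb)
    | inv u hu ihu =>
      have huP : u ∈ P := (Subgroup.closure_le P).2 (val_subset P k) hu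
      rw [show ⁅u⁻¹, b⁆ = u⁻¹ * ⁅u, b⁆⁻¹ * u⁻¹⁻¹ by simp only [commutatorElement_def]; group]
      exact hNP _ (inv_mem huP) _ (inv_mem (ihu b hb))

theorem val_subset_lcs (k : ℕ) :
    Val (⊤ : Subgroup G) k ⊆ ((⊤ : Subgroup G).lowerCentralSeries k : Set G) := by
  induction k with
  | zero => exact fun a _ => Subgroup.mem_top a
  | succ k ih =>
    rintro _ ⟨v, hv, g, -, rfl⟩
    rw [SetLike.mem_coe, Subgroup.lowerCentralSeries_succ]
    exact Subgroup.commutator_mem_commutator (ih hv) (Subgroup.mem_top g)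

end CfsgLib.CommValues
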