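import Cfsg.Agent.ZStar.Theorem
import Cfsg.Agent.Alperin.Induction
import Cfsg.Agent.MaxCentralizers.Members

/-!
In a finite simple non-abelian group of even order some elementary abelian 2-subgroup is normalised
and not centralised by an element of odd order.
-/

set_option autoImplicit false

namespace CfsgLib.CommValues

universe u

open Cfsg

variable {G : Type u} [Group G] [Finite G]

/-- If odd elements of `N(E)` centralise `E`, all of `N` fixes what a Sylow 2-subgroup of `N` fixes. -/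
theorem fix_of_odd_trivial (S : Sylow 2 G) {N E : Subgroup G}
    (hN : ∀ n ∈ N, ∀ e ∈ E, n * e * n⁻¹ ∈ E)
    (hidx : ¬ 2 ∣ ((S : Subgroup G) ⊓ N).relIndex N)
    (hodd : ∀ n ∈ N, Odd (orderOf n) → ∀ e ∈ E, Commute n e) {t : G} (ht : t ∈ E)
    (hfix : ∀ s ∈ (S : Subgroup G) ⊓ N, Commute s t) : ∀ n ∈ N, Commute n t := by
  set M : Subgroup G := N ⊓ Subgroup.centralizer ({t} : Set G) with hM
  have hle : (S : Subgroup G) ⊓ N ≤ M :=
    le_inf inf_le_right fun s hs => Subgroup.mem_centralizer_singleton_iff.2 (hfix s hs).eq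
  let K : Subgroup N := (Subgroup.centralizer (E : Set G)).subgroupOf N
  haveI : K.Normal := ⟨fun c hc n => by
    rw [Subgroup.mem_subgroupOf, Subgroup.mem_centralizer_iff] at hc ⊢
    intro e he
    have h1 : ((n : G))⁻¹ * e * n ∈ E := by simpa using hN _ (inv_mem n.2) e he
    have h2 := hc _ h1
    calc e * ((n : G) * c * (n : G)⁻¹) = n * (((n : G)⁻¹ * e * n) * c) * (n : G)⁻¹ := by group
      _ = n * (c * ((n : G)⁻¹ * e * n)) * (n : G)⁻¹ := by rw [h2]
      _ = n * c * (n : G)⁻¹ * e := by group⟩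
  have hKp : IsPGroup 2 (N ⧸ K) := by
    intro a
    induction a using QuotientGroup.induction_on with
    | _ n =>
      obtain ⟨a, b, hb, hab⟩ := Nat.exists_eq_two_pow_mul_odd (orderOf_pos (n : G)).ne'
      refine ⟨a, ?_⟩
      rw [← QuotientGroup.mk_pow, QuotientGroup.eq_one_iff, Subgroup.mem_subgroupOf,
        Subgroup.mem_centralizer_iff]
      intro e he
      refine (hodd _ ((n ^ 2 ^ a : N)).2 (hb.of_dvd_nat (orderOf_dvd_of_pow_eq_one ?_)) e he).symm.eq
      rw [Subgroup.coe_pow, ← pow_mul, ← hab, pow_orderOf_eq_one]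
  obtain ⟨j, hj⟩ := IsPGroup.iff_card.1 hKp
  have h1 : (M.subgroupOf N).index ∣ 2 ^ j := by
    rw [← hj]
    refine Subgroup.index_dvd_of_le (H := K) fun n hn => Subgroup.mem_subgroupOf.2 ⟨n.2, ?_⟩
    exact Subgroup.mem_centralizer_singleton_iff.2
      (Subgroup.mem_centralizer_iff.1 (Subgroup.mem_subgroupOf.1 hn) t ht).symm
  have h2 : (M.subgroupOf N).index ∣ ((S : Subgroup G) ⊓ N).relIndex N :=
    Subgroup.index_dvd_of_le (Subgroup.subgroupOf_mono N hle)
  have h3 : (M.subgroupOf N).index = 1 :=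
    Nat.eq_one_of_dvd_coprimes ((Nat.prime_two.coprime_iff_not_dvd.2 hidx).pow_left j) h1 h2
  intro n hn
  exact Subgroup.mem_centralizer_singleton_iff.1
    (Subgroup.subgroupOf_eq_top.1 (Subgroup.index_eq_one.1 h3) hn).2

/-- **An elementary abelian 2-subgroup with a non-trivial odd automiser.** -/
theorem exists_odd_automizer [IsSimpleGroup G] (hna : ¬ IsMulCommutative G)
    (h2 : 2 ∣ Nat.card G) :
    ∃ (E : Subgroup G) (y : G), (∀ a ∈ E, a ^ 2 = 1) ∧ IsPGroup 2 E ∧
      (∀ a ∈ E, y * a * y⁻¹ ∈ E) ∧ Odd (orderOf y) ∧ ∃ a ∈ E, ¬ Commute y a := by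
  haveI : Fact (Nat.Prime 2) := ⟨Nat.prime_two⟩
  by_contra hcon
  push Not at hcon
  obtain ⟨S⟩ : Nonempty (Sylow 2 G) := inferInstance
  haveI : Nontrivial (S : Subgroup G) := by
    refine (Subgroup.nontrivial_iff_ne_bot _).2 fun e => ?_
    have := S.not_dvd_index
    rw [e, Subgroup.index_bot] at this
    exact this h2
  -- elementary part of the centre of a subgroup
  let Ω : Subgroup G → Subgroup G := fun U =>
    { carrier := {a | a ∈ U ∧ (∀ u ∈ U, Commute a u) ∧ a ^ 2 = 1}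
      one_mem' := ⟨one_mem _, fun u _ => Commute.one_left u, one_pow _⟩
      mul_mem' := fun {a b} ha hb => ⟨mul_mem ha.1 hb.1,
        fun u hu => (ha.2.1 u hu).mul_left (hb.2.1 u hu),
        by rw [(ha.2.1 b hb.1).mul_pow, ha.2.2, hb.2.2, one_mul]⟩
      inv_mem' := fun {a} ha => ⟨inv_mem ha.1, fun u hu => (ha.2.1 u hu).inv_left,
        by rw [inv_pow, ha.2.2, inv_one]⟩ }
  obtain ⟨⟨t₀, ht₀⟩, ht₀1⟩ := exists_prime_orderOf_dvd_card' 2 (show 2 ∣ Nat.card (Subgroup.center (S : Subgroup G)) from by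
    haveI : Nontrivial (Subgroup.center (S : Subgroup G)) := IsPGroup.center_nontrivial S.isPGroup'
    obtain ⟨n, hn, hn'⟩ := (S.isPGroup'.to_subgroup (Subgroup.center (S : Subgroup G))).nontrivial_iff_card.1
      inferInstance
    exact hn' ▸ dvd_pow_self 2 hn.ne')
  set t : G := (t₀ : G) with ht
  have htS : t ∈ (S : Subgroup G) := t₀.2
  have hto : orderOf t = 2 := by
    rw [ht, Subgroup.orderOf_coe]
    rw [← Subgroup.orderOf_coe] at ht₀1
    exact ht₀1
  have htc : ∀ s ∈ (S : Subgroup G), Commute s t := fun s hs =>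
    congrArg Subtype.val (Subgroup.mem_center_iff.1 ht₀ ⟨s, hs⟩)
  have hgood : ∀ U : Subgroup G, U ≤ (S : Subgroup G) →
      ¬ 2 ∣ ((S : Subgroup G) ⊓ Subgroup.normalizer (U : Set G)).relIndex
        (Subgroup.normalizer (U : Set G)) →
      ∀ n ∈ Subgroup.normalizer (U : Set G), t ∈ U → n * t * n⁻¹ = t := by
    intro U hUS hU n hn htU
    have hconj : ∀ m ∈ Subgroup.normalizer (U : Set G), ∀ a ∈ Ω U, m * a * m⁻¹ ∈ Ω U := by
      intro m hm a ha
      refine ⟨((Subgroup.mem_normalizer_iff.1 hm) a).1 ha.1, fun u hu => ?_, by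
        rw [conj_pow, ha.2.2, mul_one, mul_inv_cancel]⟩
      have h1 := (ha.2.1 _ (((Subgroup.mem_normalizer_iff.1 (inv_mem hm)) u).1 hu))
      simpa [mul_assoc] using h1.map (MulAut.conj m).toMonoidHom
    have hp : IsPGroup 2 (Ω U) := S.isPGroup'.to_le fun a ha => hUS ha.1
    have hmem : t ∈ Ω U := ⟨htU, fun u hu => (htc u (hUS hu)).symm, orderOf_dvd_iff_pow_eq_one.1 hto.dvd⟩
    have hc := fix_of_odd_trivial S hconj hU
      (fun m hm hmo e he => hcon (Ω U) m (fun a ha => ha.2.2) hp (fun a ha => hconj m hm a ha) hmo e he)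
      hmem (fun s hs => htc s hs.1) n hn
    rw [hc.eq, mul_inv_cancel_right]
  have hiso : ∀ g : G, g * t * g⁻¹ ∈ (S : Subgroup G) → g * t * g⁻¹ = t := by
    intro g hg
    refine CfsgLib.Alperin.fusion_induction S (fun H g => t ∈ H → g * t * g⁻¹ = t)
      (fun H K g hHK _ _ hK htH => hK (hHK htH)) (fun H g k _ _ _ h1 h2 htH => ?_)
      (fun n hn => hgood _ le_rfl ?_ n hn) (fun H hH _ => ?_)
      (Subgroup.zpowers t) g (Subgroup.zpowers_le.2 htS) ?_ (Subgroup.mem_zpowers t)
    · have e := h1 htH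
      have := h2 ⟨t, htH, e⟩
      calc k * g * t * (k * g)⁻¹ = k * (g * t * g⁻¹) * k⁻¹ := by group
        _ = t := by rw [e, this]
    · rw [inf_eq_left.2 Subgroup.le_normalizer]
      exact fun h => S.not_dvd_index (h.trans (Subgroup.relIndex_dvd_index_of_le Subgroup.le_normalizer))
    · obtain ⟨x, hxS, -, hFN⟩ := CfsgLib.Alperin.exists_conj_fullyNormalized S hH.le
      exact ⟨_, hxS, ⟨x, rfl⟩, hFN, fun n hn => hgood _ hxS hFN n hn⟩
    · rw [MonoidHom.map_zpowers]
      exact Subgroup.zpowers_le.2 hg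
  obtain ⟨N, hN, hNodd, hcomm⟩ := CfsgLib.ZStar.exists_normal_odd_of_no_fusion hto S hiso
  rcases hN.eq_bot_or_eq_top with e | e
  · have htz : t ∈ Subgroup.center G := Subgroup.mem_center_iff.2 fun g => by
      have h1 := hcomm g
      rw [e, Subgroup.mem_bot, mul_inv_eq_one] at h1
      calc g * t = t * g * t⁻¹ * t := by rw [h1]
        _ = t * g := inv_mul_cancel_right _ _
    rcases (inferInstance : (Subgroup.center G).Normal).eq_bot_or_eq_top with e' | e'
    · rw [e', Subgroup.mem_bot] at htz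
      rw [htz, orderOf_one] at hto
      omega
    · exact hna ⟨⟨fun a b => (Subgroup.mem_center_iff.1 (e' ▸ Subgroup.mem_top a) b).symm⟩⟩
  · rw [e, Subgroup.card_top] at hNodd
    exact (Nat.not_even_iff_odd.2 hNodd) (even_iff_two_dvd.2 h2)

end CfsgLib.CommValues
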