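import Cfsg.Agent.CommValues.NonSolvable

/-!
A Baumslag–Wiegold criterion for the nilpotency of a lower central term.
-/

set_option autoImplicit false

open scoped commutatorElement

namespace CfsgLib.CommValues

universe u

variable {G : Type u} [Group G] [Finite G]

theorem commute_of_coprime_nilpotent {H : Type*} [Group H] [Finite H] [Group.IsNilpotent H]
    {x y : H} (h : (orderOf x).Coprime (orderOf y)) : Commute x y := by
  let e := Sylow.directProductOfNormal (G := H)
    (fun {p} _ P => Sylow.normal_of_normalizerCondition Group.normalizerCondition_of_isNilpotent P)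
  suffices hc : Commute (e.symm x) (e.symm y) by simpa using hc.map e.toMonoidHom
  refine funext fun p => funext fun P => ?_
  set a := e.symm x p P with ha
  set b := e.symm y p P with hb
  change a * b = b * a
  let f := (Pi.evalMonoidHom (fun Q : Sylow p.1 H => (Q : Subgroup H)) P).comp
    ((Pi.evalMonoidHom (fun p : (Nat.card H).primeFactors => ∀ Q : Sylow p.1 H, (Q : Subgroup H)) p).comp
      e.symm.toMonoidHom)
  haveI : Fact p.1.Prime := ⟨Nat.prime_of_mem_primeFactors p.2⟩
  obtain ⟨i, hi⟩ := IsPGroup.iff_orderOf.1 P.isPGroup' a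
  obtain ⟨j, hj⟩ := IsPGroup.iff_orderOf.1 P.isPGroup' b
  have h1 : (orderOf a).Coprime (orderOf b) :=
    (h.coprime_dvd_left (orderOf_map_dvd f x)).coprime_dvd_right (orderOf_map_dvd f y)
  rw [hi, hj] at h1
  rcases Nat.eq_zero_or_pos i with rfl | hi0
  · rw [orderOf_eq_one_iff.1 (hi.trans (pow_zero _)), one_mul, mul_one]
  rcases Nat.eq_zero_or_pos j with rfl | hj0
  · rw [orderOf_eq_one_iff.1 (hj.trans (pow_zero _)), one_mul, mul_one]
  exact absurd ((Nat.coprime_pow_left_iff hi0 _ _).1 ((Nat.coprime_pow_right_iff hj0 _ _).1 h1))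
    (fun hh => (Fact.out : p.1.Prime).coprime_iff_not_dvd.1 hh dvd_rfl)

/-- Coprime values satisfy the order condition if and only if the lower central term is nilpotent. -/
theorem nilpotent_lcs_iff
    (hFT : ∀ (H : Type u) [Group H] [Finite H], Odd (Nat.card H) → Group.IsSolvable H) (k : ℕ) :
    Group.IsNilpotent ((⊤ : Subgroup G).lowerCentralSeries k) ↔
      ∀ x ∈ Val (⊤ : Subgroup G) k, ∀ y ∈ Val (⊤ : Subgroup G) k,
        (orderOf x).Coprime (orderOf y) →
          (∀ r : ℕ, r.Prime → r ∣ orderOf x * orderOf y → r ∣ orderOf (x * y)) ∨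
            orderOf x * orderOf y ≤ orderOf (x * y) := by
  refine ⟨fun hn x hx y hy hc => Or.inr (le_of_eq ?_), fun h => ?_⟩
  · haveI := hn
    have hc₀ : Commute (⟨x, val_subset_lcs k hx⟩ : (⊤ : Subgroup G).lowerCentralSeries k)
        ⟨y, val_subset_lcs k hy⟩ :=
      commute_of_coprime_nilpotent (by rwa [Subgroup.orderOf_mk, Subgroup.orderOf_mk])
    have hc' : Commute x y := congrArg Subtype.val hc₀.eq
    exact (hc'.orderOf_mul_eq_mul_orderOf_of_coprime hc).symm
  · have hc := cent_of_orders h fun a => orderOf_pos a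
    haveI := hc.isSolvable hFT _ G rfl
    exact hc.isNilpotent_lcs

/-- Values written as folds of tuples. -/
theorem mem_val_iff (k : ℕ) (x : G) :
    x ∈ Val (⊤ : Subgroup G) k ↔ ∃ f : Fin (k + 1) → G,
      x = ((List.ofFn f).tail).foldl (fun a b => a * b * a⁻¹ * b⁻¹) (f 0) := by
  induction k generalizing x with
  | zero => exact ⟨fun _ => ⟨fun _ => x, by simp⟩, fun _ => Subgroup.mem_top x⟩
  | succ k ih =>
    have hstep : ∀ f : Fin (k + 2) → G,
        ((List.ofFn f).tail).foldl (fun a b => a * b * a⁻¹ * b⁻¹) (f 0) =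
          ⁅((List.ofFn (f ∘ Fin.castSucc)).tail).foldl (fun a b => a * b * a⁻¹ * b⁻¹)
            ((f ∘ Fin.castSucc) 0), f (Fin.last (k + 1))⁆ := by
      intro f
      rw [List.ofFn_succ' f]
      simp only [List.concat_eq_append]
      rw [List.tail_append_of_ne_nil (by simp), List.foldl_append]
      simp [commutatorElement_def, Function.comp_def]
    constructor
    · rintro ⟨v, hv, g, -, rfl⟩
      obtain ⟨f, rfl⟩ := (ih v).1 hv
      refine ⟨Fin.snoc f g, ?_⟩
      rw [hstep]
      simp [Function.comp_def, Fin.snoc_castSucc, Fin.snoc_last]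
    · rintro ⟨f, rfl⟩
      exact ⟨_, (ih _).2 ⟨f ∘ Fin.castSucc, rfl⟩, f (Fin.last (k + 1)), Subgroup.mem_top _, hstep f⟩

end CfsgLib.CommValues
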