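import Cfsg.Agent.CommValues.Solvable
import Cfsg.Agent.CommValues.Fusion
import Cfsg.Agent.BaerSuzuki.Basic

/-!
A group satisfying `Cent` is solvable, given that groups of odd order are.
-/

set_option autoImplicit false

open scoped commutatorElement

namespace CfsgLib.CommValues

universe u

open Cfsg

variable {k : ℕ}

theorem commute_of_sq {H : Type*} [Group H] {e f : H} (he : e * e = 1) (hf : f * f = 1)
    (hef : (e * f) ^ 2 = 1) : Commute e f := by
  have h1 : (e * f)⁻¹ = e * f := inv_eq_of_mul_eq_one_right (by rwa [pow_two] at hef)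
  rw [mul_inv_rev, inv_eq_of_mul_eq_one_right he, inv_eq_of_mul_eq_one_right hf] at h1
  exact h1.symm

theorem Cent.isSolvable
    (hFT : ∀ (H : Type u) [Group H] [Finite H], Odd (Nat.card H) → Group.IsSolvable H) (n : ℕ) :
    ∀ (G : Type u) [Group G] [Finite G], Nat.card G = n → Cent k G → Group.IsSolvable G := by
  induction n using Nat.strong_induction_on with
  | _ n ih =>
  intro G _ _ hcard h
  subst hcard
  by_contra hns
  have hsub : ∀ H : Subgroup G, H ≠ ⊤ → Group.IsSolvable H := fun H hH =>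
    ih _ (lt_of_le_of_ne (Nat.le_of_dvd Nat.card_pos H.card_subgroup_dvd_card)
      fun e => hH ((Subgroup.card_eq_iff_eq_top H).1 e)) H rfl (h.subgroup H)
  haveI : Nontrivial G := by
    rw [← not_subsingleton_iff_nontrivial]
    intro hsg
    exact hns (Group.isSolvable_of_comm fun a b => Subsingleton.elim _ _)
  -- every proper quotient with solvable kernel is perfect
  have hquot : ∀ (K : Subgroup G) [K.Normal], K ≠ ⊤ → ¬ Group.IsSolvable (G ⧸ K) := by
    intro K _ hK hs
    haveI := hsub K hK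
    exact hns (Group.isSolvable_of_ker_le_range K.subtype (QuotientGroup.mk' K)
      (by rw [QuotientGroup.ker_mk', Subgroup.range_subtype]))
  obtain ⟨N, -, hN⟩ := Finite.exists_le_maximal
    (p := fun K : Subgroup G => K.Normal ∧ K ≠ ⊤) (a := ⊥) ⟨inferInstance, bot_ne_top⟩
  obtain ⟨hNn, hNt⟩ := hN.prop
  haveI := hNn
  set π := QuotientGroup.mk' N with hπ
  haveI hsimple : IsSimpleGroup (G ⧸ N) := by
    haveI : Nontrivial (G ⧸ N) := QuotientGroup.nontrivial_iff.2 hNt
    refine ⟨fun L hL => ?_⟩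
    have hle : N ≤ L.comap π := by
      intro a ha
      rw [Subgroup.mem_comap, hπ, QuotientGroup.mk'_apply, (QuotientGroup.eq_one_iff a).2 ha]
      exact one_mem _
    by_cases htop : L.comap π = ⊤
    · right
      refine Subgroup.comap_injective (QuotientGroup.mk'_surjective N) ?_
      rw [htop, Subgroup.comap_top]
    · left
      refine Subgroup.comap_injective (QuotientGroup.mk'_surjective N) ?_
      rw [MonoidHom.comap_bot, QuotientGroup.ker_mk']
      exact le_antisymm (hN.le_of_ge ⟨inferInstance, htop⟩ hle) hle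
  have hna : ¬ IsMulCommutative (G ⧸ N) := fun hc =>
    hquot N hNt (Group.isSolvable_of_comm fun a b => hc.1.1 a b)
  -- Sylow subgroups of `N` are normal in `G`
  have hsylN : ∀ (p : ℕ) [Fact p.Prime] (P : Sylow p N),
      ((P : Subgroup N).map N.subtype).Normal := by
    intro p _ P
    rw [← Subgroup.normalizer_eq_top_iff]
    by_contra hne
    haveI := hsub _ hne
    refine hquot N hNt ?_
    refine Group.isSolvable_of_surjective
      (f := π.comp (Subgroup.normalizer ((P : Subgroup N).map N.subtype : Set G)).subtype) fun q => ?_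
    obtain ⟨g, rfl⟩ := QuotientGroup.mk'_surjective N q
    have hg : g ∈ Subgroup.normalizer ((P : Subgroup N).map N.subtype : Set G) ⊔ N :=
      Sylow.normalizer_sup_eq_top P ▸ Subgroup.mem_top g
    obtain ⟨a, ha, b, hb, rfl⟩ := Subgroup.mem_sup_of_normal_right.1 hg
    refine ⟨⟨a, ha⟩, ?_⟩
    change π a = π (a * b)
    rw [map_mul, show π b = 1 from (QuotientGroup.eq_one_iff b).2 hb, mul_one]
  -- a `p`-value outside `N` makes the other parts of `N` central
  have hcentral : ∀ (p : ℕ), p.Prime → ∀ x ∈ Val (⊤ : Subgroup G) k, (∃ i, x ^ p ^ i = 1) →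
      x ∉ N → ∀ (r : ℕ), r.Prime → r ≠ p → ∀ a ∈ N, (∃ i, a ^ r ^ i = 1) →
        a ∈ Subgroup.center G := by
    intro p hp x hxv hxp hxN r hr hrp a ha hai
    haveI : Fact r.Prime := ⟨hr⟩
    obtain ⟨i, hi⟩ := hai
    have hz : IsPGroup r (Subgroup.zpowers (⟨a, ha⟩ : N)) := by
      obtain ⟨j, -, hj⟩ := (Nat.dvd_prime_pow hr).1 (orderOf_dvd_of_pow_eq_one hi)
      exact IsPGroup.of_card (n := j) (by rw [Nat.card_zpowers, Subgroup.orderOf_mk, hj])
    obtain ⟨P, hP⟩ := hz.exists_le_sylow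
    set W := (P : Subgroup N).map N.subtype with hW
    haveI hWn : W.Normal := hsylN r P
    have hxC : x ∈ Subgroup.centralizer (W : Set G) := by
      rw [Subgroup.mem_centralizer_iff]
      intro w hw
      refine (h x hxv W (fun b hb => hWn.conj_mem b hb x) (fun b hb => ?_) w hw).eq
      obtain ⟨j, hj⟩ := (P.isPGroup'.map N.subtype) ⟨b, hb⟩
      exact coprime_of_pow ((Nat.coprime_primes hr hp).2 hrp)
        ⟨j, by simpa using congrArg Subtype.val hj⟩ hxp
    have hCtop : Subgroup.centralizer (W : Set G) = ⊤ := by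
      by_contra hne
      haveI := hsub _ hne
      rcases (Subgroup.Normal.map (inferInstance : (Subgroup.centralizer (W : Set G)).Normal) π
        (QuotientGroup.mk'_surjective N)).eq_bot_or_eq_top with e | e
      · refine hxN ((QuotientGroup.eq_one_iff x).1 ?_)
        have h1 : π x ∈ (Subgroup.centralizer (W : Set G)).map π := ⟨x, hxC, rfl⟩
        rwa [e, Subgroup.mem_bot] at h1
      · refine hquot N hNt (Group.isSolvable_of_surjective
          (f := π.comp (Subgroup.centralizer (W : Set G)).subtype) fun q => ?_)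
        obtain ⟨c, hc, hcq⟩ := e.ge (Subgroup.mem_top q)
        exact ⟨⟨c, hc⟩, hcq⟩
    rw [Subgroup.mem_center_iff]
    intro g
    exact (Subgroup.mem_centralizer_iff.1 (hCtop.ge (Subgroup.mem_top g)) a
      ⟨⟨a, ha⟩, hP (Subgroup.mem_zpowers _), rfl⟩).symm
  -- values from a coprime action in the quotient
  have hval : ∀ (p q : ℕ), p.Prime → q ≠ p → ∀ (T : Subgroup G), IsPGroup p T → ∀ z : G,
      (∀ b ∈ T, z * b * z⁻¹ ∈ T) → (orderOf z).Coprime p →
      ∀ b ∈ T, ¬ Commute (π b) (π z) →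
        ∃ x ∈ Val (⊤ : Subgroup G) k, x ∈ T ∧ (∃ i, x ^ p ^ i = 1) ∧ x ∉ N := by
    intro p q hp _ T hT z hn hz b hb hne
    refine ⟨itc b z k, itc_mem_val (Subgroup.mem_top _) (Subgroup.mem_top _) k, itc_mem hb hn k,
      ?_, fun hmem => hne ?_⟩
    · obtain ⟨i, hi⟩ := hT ⟨_, itc_mem hb hn k⟩
      exact ⟨i, by simpa using congrArg Subtype.val hi⟩
    · refine commute_of_itc_eq_one (W := T.map π) ⟨b, hb, rfl⟩ ?_ ?_ k ?_
      · rintro _ ⟨c, hc, rfl⟩
        exact ⟨z * c * z⁻¹, hn c hc, by simp⟩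
      · rintro _ ⟨c, hc, rfl⟩
        obtain ⟨i, hi⟩ := hT ⟨c, hc⟩
        have hi' : c ^ p ^ i = 1 := by simpa using congrArg Subtype.val hi
        exact ((hz.symm.pow_left i).coprime_dvd_right (orderOf_map_dvd π z)).coprime_dvd_left
          ((orderOf_map_dvd π c).trans (orderOf_dvd_of_pow_eq_one hi'))
      · rw [← map_itc]
        exact (QuotientGroup.eq_one_iff _).2 hmem
  have h2 : 2 ∣ Nat.card (G ⧸ N) := by
    rw [← even_iff_two_dvd, ← Nat.not_odd_iff_even]
    exact fun ho => hquot N hNt (hFT _ ho)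
  haveI : Fact (Nat.Prime 2) := ⟨Nat.prime_two⟩
  -- a 2-value mapping onto an involution
  obtain ⟨E, y, hEexp, hEp, hEn, hyo, a₀, ha₀, hya⟩ := exists_odd_automizer hna h2
  obtain ⟨x, hxv, hxp, hxN, hxE⟩ : ∃ x, x ∈ Val (⊤ : Subgroup G) k ∧ (∃ i, x ^ 2 ^ i = 1) ∧
      x ∉ N ∧ π x ∈ E := by
    set X := E.comap π with hX
    obtain ⟨P⟩ : Nonempty (Sylow 2 X) := inferInstance
    set T := (P : Subgroup X).map X.subtype with hT
    have hTX : T ≤ X := Subgroup.map_subtype_le _
    obtain ⟨y₀, rfl⟩ := QuotientGroup.mk'_surjective N y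
    -- `T` covers `E`
    have hcov : ∀ e ∈ E, ∃ b ∈ T, π b = e := by
      intro e he
      obtain ⟨c₀, rfl⟩ := QuotientGroup.mk'_surjective N e
      let g : X →* G ⧸ N := π.comp X.subtype
      have hidx : ((P : Subgroup X) ⊔ g.ker).index = 1 := by
        have h1 : ((P : Subgroup X) ⊔ g.ker).index ∣ Nat.card g.range := by
          rw [← Subgroup.index_ker]; exact Subgroup.index_dvd_of_le le_sup_right
        obtain ⟨j, hj⟩ := IsPGroup.iff_card.1 (hEp.to_le
          (show g.range ≤ E by rintro _ ⟨b, rfl⟩; exact b.2))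
        rw [hj] at h1
        exact Nat.eq_one_of_dvd_coprimes
          ((Nat.prime_two.coprime_iff_not_dvd.2 P.not_dvd_index).pow_left j) h1
          (Subgroup.index_dvd_of_le le_sup_left)
      have hmem : (⟨c₀, he⟩ : X) ∈ (P : Subgroup X) ⊔ g.ker := by
        rw [Subgroup.index_eq_one.1 hidx]; trivial
      obtain ⟨u, hu, v, hv, huv⟩ := Subgroup.mem_sup_of_normal_right.1 hmem
      refine ⟨u, ⟨u, hu, rfl⟩, ?_⟩
      rw [← show ((u * v : X) : G) = c₀ from congrArg Subtype.val huv, Subgroup.coe_mul, map_mul,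
        show π (v : G) = 1 from hv, mul_one]
    -- an odd element of `N(T)` inducing `y` on `E`
    have hyX : y₀ ∈ Subgroup.normalizer (X : Set G) := by
      have hstep : ∀ b ∈ E, ∀ z : G ⧸ N, (∀ a ∈ E, z * a * z⁻¹ ∈ E) → z⁻¹ * b * z ∈ E := by
        intro b hb z hz
        have hle : E.map (MulAut.conj z).toMonoidHom ≤ E := by rintro _ ⟨a, ha, rfl⟩; exact hz a ha
        have heq := Subgroup.eq_of_le_of_card_ge hle
          (le_of_eq (Subgroup.card_map_of_injective (MulAut.conj z).injective).symm)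
        obtain ⟨a, ha, hab⟩ := heq.ge hb
        rw [← hab]
        simpa [mul_assoc] using ha
      rw [Subgroup.mem_normalizer_iff]
      intro b
      constructor
      · intro hb
        change π (y₀ * b * y₀⁻¹) ∈ E
        rw [map_mul, map_mul, map_inv]
        exact hEn _ hb
      · intro hb
        have hb' : π y₀ * π b * (π y₀)⁻¹ ∈ E := by
          change π (y₀ * b * y₀⁻¹) ∈ E at hb
          rwa [map_mul, map_mul, map_inv] at hb
        have h9 := hstep _ hb' (π y₀) hEn
        rw [show (π y₀)⁻¹ * (π y₀ * π b * (π y₀)⁻¹) * π y₀ = π b by group] at h9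
        exact h9
    obtain ⟨m, hm, u, hu, hmu⟩ : ∃ m ∈ Subgroup.normalizer (T : Set G), ∃ u ∈ X, m * u = y₀ := by
      -- Frattini argument inside `N(X)`
      let ψ : MulAut X :=
        { toFun := fun b => ⟨y₀ * b * y₀⁻¹, ((Subgroup.mem_normalizer_iff.1 hyX) b).1 b.2⟩
          invFun := fun b => ⟨y₀⁻¹ * b * y₀, by
            have := ((Subgroup.mem_normalizer_iff.1 (inv_mem hyX)) b).1 b.2
            simpa using this⟩
          left_inv := fun b => Subtype.ext (by simp [mul_assoc])
          right_inv := fun b => Subtype.ext (by simp [mul_assoc])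
          map_mul' := fun a b => Subtype.ext (by simp [mul_assoc]) }
      obtain ⟨d, hd⟩ := MulAction.exists_smul_eq X (ψ • P) P
      refine ⟨(d : G) * y₀, ?_, y₀⁻¹ * (d : G)⁻¹ * y₀, ?_, by group⟩
      · have hmap : ∀ b ∈ T, (d : G) * y₀ * b * ((d : G) * y₀)⁻¹ ∈ T := by
          rintro _ ⟨b, hb, rfl⟩
          refine ⟨d * ψ b * d⁻¹, ?_, by simp [ψ, mul_assoc]⟩
          have : d * ψ b * d⁻¹ ∈ (d • (ψ • P) : Sylow 2 X).toSubgroup := by
            rw [Sylow.coe_subgroup_smul, Sylow.pointwise_smul_def]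
            exact ⟨ψ b, ⟨b, hb, rfl⟩, rfl⟩
          rwa [hd] at this
        refine Subgroup.mem_normalizer_iff.2 fun b => ⟨hmap b, fun hb => ?_⟩
        have hle : T.map (MulAut.conj ((d : G) * y₀)).toMonoidHom ≤ T := by
          rintro _ ⟨a, ha, rfl⟩; exact hmap a ha
        obtain ⟨a, ha, hab⟩ := (Subgroup.eq_of_le_of_card_ge hle
          (le_of_eq (Subgroup.card_map_of_injective (MulAut.conj ((d : G) * y₀)).injective).symm)).ge hb
        have : a = b := (MulAut.conj ((d : G) * y₀)).injective hab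
        exact this ▸ ha
      · have := ((Subgroup.mem_normalizer_iff.1 (inv_mem hyX)) ((d : G)⁻¹)).1 (inv_mem d.2)
        simpa [hX] using this
    -- `E` is abelian, so `m` induces the same as `y`
    obtain ⟨a, b, hb, hab⟩ := Nat.exists_eq_two_pow_mul_odd (orderOf_pos m).ne'
    have hEcomm : ∀ e ∈ E, ∀ f ∈ E, Commute e f := fun e he f hf => by
      have h1 := hEexp _ (mul_mem he hf)
      have h2 := hEexp e he
      have h3 := hEexp f hf
      rw [pow_two] at h1 h2 h3
      rw [← pow_two] at h1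
      exact (CfsgLib.CommValues.commute_of_sq h2 h3 h1)
    have hmodd : (orderOf (m ^ 2 ^ a)).Coprime 2 := by
      rw [orderOf_pow, hab, Nat.gcd_eq_right (dvd_mul_right _ _),
        Nat.mul_div_cancel_left _ (pow_pos two_pos a)]
      exact (Nat.prime_two.coprime_iff_not_dvd.2 (Nat.two_dvd_ne_zero.2 (Nat.odd_iff.1 hb))).symm
    obtain ⟨b₀, hb₀, hne⟩ : ∃ b₀ ∈ T, ¬ Commute (π b₀) (π (m ^ 2 ^ a)) := by
      by_contra hcon
      push Not at hcon
      obtain ⟨j, hj⟩ := exists_pow_eq_self_of_coprime (x := π y₀) (n := 2 ^ a)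
        ((Nat.prime_two.coprime_iff_not_dvd.2 (Nat.two_dvd_ne_zero.2 (Nat.odd_iff.1 hyo))).pow_left a)
      refine hya ?_
      rw [← hj]
      refine Commute.pow_left ?_ j
      obtain ⟨b₁, hb₁, rfl⟩ := hcov a₀ ha₀
      -- powers of `y` and `m` induce the same automorphism
      have hconj : ∀ (i : ℕ), ∀ e ∈ E, π y₀ ^ i * e * (π y₀ ^ i)⁻¹ = π m ^ i * e * (π m ^ i)⁻¹ ∧
          π m ^ i * e * (π m ^ i)⁻¹ ∈ E := by
        intro i
        induction i with
        | zero => intro e he; simpa using he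
        | succ i ihi =>
          intro e he
          have h1 : π y₀ * e * (π y₀)⁻¹ = π m * e * (π m)⁻¹ := by
            rw [← hmu, map_mul]
            calc π m * π u * e * (π m * π u)⁻¹ = π m * (π u * e * (π u)⁻¹) * (π m)⁻¹ := by group
              _ = π m * e * (π m)⁻¹ := by
                  rw [(hEcomm _ hu e he).eq, mul_inv_cancel_right]
          obtain ⟨h2, h3⟩ := ihi _ (hEn e he)
          rw [h1] at h2 h3
          constructor
          · calc π y₀ ^ (i + 1) * e * (π y₀ ^ (i + 1))⁻¹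
                = π y₀ ^ i * (π y₀ * e * (π y₀)⁻¹) * (π y₀ ^ i)⁻¹ := by rw [pow_succ]; group
              _ = π m ^ i * (π m * e * (π m)⁻¹) * (π m ^ i)⁻¹ := by rw [h1]; exact h2
              _ = π m ^ (i + 1) * e * (π m ^ (i + 1))⁻¹ := by rw [pow_succ]; group
          · convert h3 using 1
            rw [pow_succ]; group
      refine mul_inv_eq_iff_eq_mul.1 ?_
      rw [(hconj (2 ^ a) _ ha₀).1, ← map_pow, (hcon b₁ hb₁).symm.eq, mul_inv_cancel_right]
    obtain ⟨x, hxv, hxT, hxp, hxN⟩ := hval 2 3 Nat.prime_two (by norm_num) T (P.isPGroup'.map _)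
      (m ^ 2 ^ a) (fun c hc => ((Subgroup.mem_normalizer_iff.1 (pow_mem hm _)) c).1 hc) hmodd b₀ hb₀ hne
    exact ⟨x, hxv, hxp, hxN, hTX hxT⟩
  have hπx : π x ≠ 1 := fun e => hxN ((QuotientGroup.eq_one_iff x).1 e)
  have hxo : orderOf (π x) = 2 := orderOf_eq_prime (hEexp _ hxE) hπx
  -- it inverts an element of odd prime order
  have hO : π x ∉ Cfsg.pCore 2 (G ⧸ N) := by
    intro hmem
    rcases (Cfsg.pCore_normal 2 (G ⧸ N)).eq_bot_or_eq_top with e | e
    · rw [e, Subgroup.mem_bot] at hmem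
      exact hπx hmem
    · have hp : IsPGroup 2 (⊤ : Subgroup (G ⧸ N)) := e ▸ CfsgLib.Constrained.isPGroup_pCore
      haveI := (hp.of_equiv Subgroup.topEquiv).isNilpotent
      exact hquot N hNt inferInstance
  obtain ⟨h₀, hh₀1, hh₀o, hh₀i⟩ := CfsgLib.BaerSuzuki.involution_inverts_odd hxo hO
  obtain ⟨r, hr, hrd⟩ := Nat.exists_prime_and_dvd (fun e => hh₀1 (orderOf_eq_one_iff.1 e))
  haveI : Fact r.Prime := ⟨hr⟩
  have hr2 : r ≠ 2 := by rintro rfl; exact (Nat.not_even_iff_odd.2 hh₀o) (even_iff_two_dvd.2 hrd)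
  set c := h₀ ^ (orderOf h₀ / r) with hc
  have hco : orderOf c = r := orderOf_pow_orderOf_div (orderOf_pos h₀).ne' hrd
  have hci : π x * c * (π x)⁻¹ = c⁻¹ := by
    rw [hc, ← conj_pow, hh₀i, inv_pow]
  have hc1 : c ≠ 1 := fun e => hr.one_lt.ne' (by rw [← hco, e, orderOf_one])
  obtain ⟨z₀, hz₀⟩ := QuotientGroup.mk'_surjective N c
  obtain ⟨e, he, heq⟩ := exists_part π z₀ hr ⟨1, by
    rw [pow_one, hz₀, ← hco, pow_orderOf_eq_one]⟩
  set z := z₀ ^ e with hz
  have hπz : π z = c := heq.trans hz₀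
  -- the parts of `N`
  have hNcen : N ≤ Subgroup.center G := by
    set M := (Subgroup.zpowers c).comap π with hM
    obtain ⟨R⟩ : Nonempty (Sylow r M) := inferInstance
    have hodd : ∃ v ∈ Val (⊤ : Subgroup G) k, (∃ i, v ^ r ^ i = 1) ∧ v ∉ N := by
      -- Frattini inside `N(M)`
      have hxM : ∀ b ∈ M, x * b * x⁻¹ ∈ M := by
        intro b hb
        obtain ⟨i, hi⟩ := Subgroup.mem_zpowers_iff.1 (Subgroup.mem_comap.1 hb)
        refine Subgroup.mem_comap.2 (Subgroup.mem_zpowers_iff.2 ⟨-i, ?_⟩)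
        rw [map_mul, map_mul, map_inv, ← hi, ← conj_zpow, hci, inv_zpow']
      let ψ₀ : M →* M :=
        { toFun := fun b => (⟨x * b * x⁻¹, hxM b b.2⟩ : M)
          map_one' := Subtype.ext (by simp)
          map_mul' := fun a b => Subtype.ext (by simp [mul_assoc]) }
      let ψ : MulAut M := MulEquiv.ofBijective ψ₀
        (Finite.injective_iff_bijective.1 fun a b hab => Subtype.ext
          ((MulAut.conj x).injective (congrArg Subtype.val hab)))
      obtain ⟨d, hd⟩ := MulAction.exists_smul_eq M (ψ • R) R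
      set T := (R : Subgroup M).map M.subtype with hT
      have hmap : ∀ b ∈ T, (d : G) * x * b * ((d : G) * x)⁻¹ ∈ T := by
        rintro _ ⟨b, hb, rfl⟩
        refine ⟨d * ψ b * d⁻¹, ?_, by simp [ψ, ψ₀, mul_assoc]⟩
        have : d * ψ b * d⁻¹ ∈ (d • (ψ • R) : Sylow r M).toSubgroup := by
          rw [Sylow.coe_subgroup_smul, Sylow.pointwise_smul_def]
          exact ⟨ψ b, ⟨b, hb, rfl⟩, rfl⟩
        rwa [hd] at this
      obtain ⟨i, hi⟩ := Subgroup.mem_zpowers_iff.1 (Subgroup.mem_comap.1 d.2)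
      have himg : π ((d : G) * x) ^ 2 ^ 1 = 1 := by
        rw [map_mul, ← hi, pow_one, pow_two]
        calc c ^ i * π x * (c ^ i * π x) = c ^ i * (π x * c * (π x)⁻¹) ^ i * (π x * π x) := by
              rw [conj_zpow]; group
          _ = 1 := by
              rw [hci, inv_zpow, mul_inv_cancel, one_mul, ← pow_two, ← hxo, pow_orderOf_eq_one]
      obtain ⟨e', he', heq'⟩ := exists_part π ((d : G) * x) Nat.prime_two ⟨1, himg⟩
      have hmn : ∀ b ∈ T, ((d : G) * x) ^ e' * b * (((d : G) * x) ^ e')⁻¹ ∈ T := by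
        suffices h' : ∀ j : ℕ, ∀ b ∈ T, ((d : G) * x) ^ j * b * (((d : G) * x) ^ j)⁻¹ ∈ T from h' e'
        intro j
        induction j with
        | zero => intro b hb; simpa using hb
        | succ j ihj =>
          intro b hb
          convert ihj _ (hmap b hb) using 1
          rw [pow_succ]; group
      obtain ⟨b, hb, hbc⟩ : ∃ b ∈ T, π b = c := by
        let g : M →* G ⧸ N := π.comp M.subtype
        have hidx : ((R : Subgroup M) ⊔ g.ker).index = 1 := by
          have h1 : ((R : Subgroup M) ⊔ g.ker).index ∣ r := by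
            refine (Subgroup.index_dvd_of_le le_sup_right).trans ?_
            rw [Subgroup.index_ker, ← hco, ← Nat.card_zpowers]
            exact Subgroup.card_dvd_of_le (by rintro _ ⟨b, rfl⟩; exact b.2)
          exact Nat.eq_one_of_dvd_coprimes (hr.coprime_iff_not_dvd.2 R.not_dvd_index) h1
            (Subgroup.index_dvd_of_le le_sup_left)
        have hmem : (⟨z₀, by rw [hM, Subgroup.mem_comap, hz₀]; exact Subgroup.mem_zpowers c⟩ : M) ∈
            (R : Subgroup M) ⊔ g.ker := by
          rw [Subgroup.index_eq_one.1 hidx]; trivial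
        obtain ⟨u, hu, v, hv, huv⟩ := Subgroup.mem_sup_of_normal_right.1 hmem
        refine ⟨u, ⟨u, hu, rfl⟩, ?_⟩
        rw [← hz₀, ← show ((u * v : M) : G) = z₀ from congrArg Subtype.val huv, Subgroup.coe_mul,
          map_mul, show π (v : G) = 1 from hv, mul_one]
      have hcop : (orderOf (((d : G) * x) ^ e')).Coprime r := by
        obtain ⟨j, hj⟩ := he'
        exact (((Nat.coprime_primes Nat.prime_two hr).2 (Ne.symm hr2)).pow_left j).coprime_dvd_left
          (orderOf_dvd_of_pow_eq_one hj)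
      obtain ⟨v, hvv, -, hvp, hvN⟩ := hval r 2 hr (Ne.symm hr2) T (R.isPGroup'.map _) _ hmn hcop b hb
        (fun hcm => by
          rw [hbc, heq', map_mul, ← hi] at hcm
          have h1 : π x * c * (π x)⁻¹ = c := by
            have h2 : Commute c (π x) := by
              have := ((Commute.refl c).zpow_right i).inv_right.mul_right hcm
              rwa [inv_mul_cancel_left] at this
            rw [h2.symm.eq, mul_inv_cancel_right]
          rw [hci] at h1
          have h3 : c ^ 2 = 1 := by rw [pow_two]; nth_rewrite 1 [← h1]; exact inv_mul_cancel c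
          have h4 := orderOf_dvd_of_pow_eq_one h3
          rw [hco] at h4
          exact hr2 ((Nat.prime_dvd_prime_iff_eq hr Nat.prime_two).1 h4))
      exact ⟨v, hvv, hvp, hvN⟩
    obtain ⟨v, hvv, hvp, hvN⟩ := hodd
    refine CfsgLib.MaxCentralizers.le_of_primePow fun w hw p i hp hwp => ?_
    by_cases hp2 : p = 2
    · exact hcentral r hr v hvv hvp hvN p hp (hp2 ▸ Ne.symm hr2) w hw ⟨i, hwp ▸ pow_orderOf_eq_one w⟩
    · exact hcentral 2 Nat.prime_two x hxv hxp hxN p hp hp2 w hw ⟨i, hwp ▸ pow_orderOf_eq_one w⟩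
  -- `x` normalises the `r`-elements of the abelian preimage of `⟨c⟩`
  let M : Subgroup G := N ⊔ Subgroup.zpowers z
  have hMcomm : ∀ a ∈ M, ∀ b ∈ M, Commute a b := by
    have hz' : ∀ a ∈ M, Commute a z := fun a ha => by
      obtain ⟨n', hn', w, hw, rfl⟩ := Subgroup.mem_sup_of_normal_left.1 ha
      obtain ⟨i, rfl⟩ := Subgroup.mem_zpowers_iff.1 hw
      have hnz : Commute n' z := (Subgroup.mem_center_iff.1 (hNcen hn') z).symm
      exact hnz.mul_left ((Commute.refl z).zpow_left i)
    intro a ha b hb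
    obtain ⟨n', hn', w, hw, rfl⟩ := Subgroup.mem_sup_of_normal_left.1 hb
    obtain ⟨i, rfl⟩ := Subgroup.mem_zpowers_iff.1 hw
    have han : Commute a n' := Subgroup.mem_center_iff.1 (hNcen hn') a
    exact han.mul_right ((hz' a ha).zpow_right i)
  let W : Subgroup G :=
    { carrier := {a | a ∈ M ∧ ∃ i, a ^ r ^ i = 1}
      one_mem' := ⟨one_mem _, 0, one_pow _⟩
      mul_mem' := by
        rintro a b ⟨ha, i, hi⟩ ⟨hb, j, hj⟩
        refine ⟨mul_mem ha hb, i + j, ?_⟩
        rw [(hMcomm a ha b hb).mul_pow, pow_add, pow_mul, hi, one_pow, one_mul, mul_comm, pow_mul,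
          hj, one_pow]
      inv_mem' := by
        rintro a ⟨ha, i, hi⟩
        exact ⟨inv_mem ha, i, by rw [inv_pow, hi, inv_one]⟩ }
  have hxz : x * z * x⁻¹ ∈ M := by
    have hmem : x * z * x⁻¹ * z ∈ N := (QuotientGroup.eq_one_iff _).1 (by
      change π (x * z * x⁻¹ * z) = 1
      rw [map_mul, map_mul, map_mul, map_inv, hπz, hci, inv_mul_cancel])
    have : x * z * x⁻¹ = (x * z * x⁻¹ * z) * z⁻¹ := by group
    rw [this]
    exact mul_mem (Subgroup.mem_sup_left hmem) (Subgroup.mem_sup_right (inv_mem (Subgroup.mem_zpowers z)))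
  have hWn : ∀ a ∈ W, x * a * x⁻¹ ∈ W := by
    rintro a ⟨ha, i, hi⟩
    refine ⟨?_, i, by rw [conj_pow, hi, mul_one, mul_inv_cancel]⟩
    have hle : M ≤ M.comap (MulAut.conj x).toMonoidHom := sup_le
      (fun b hb => Subgroup.mem_sup_left (hNn.conj_mem b hb x)) (Subgroup.zpowers_le.2 hxz)
    exact hle ha
  have hzW : z ∈ W := ⟨Subgroup.mem_sup_right (Subgroup.mem_zpowers z), he⟩
  have hcx := h x hxv W hWn (fun a ha => coprime_of_pow
    ((Nat.coprime_primes hr Nat.prime_two).2 hr2) ha.2 hxp) z hzW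
  have h5 : π x * c * (π x)⁻¹ = c := by
    rw [← hπz, ← map_inv, ← map_mul, ← map_mul, hcx.symm.eq, mul_inv_cancel_right]
  rw [hci] at h5
  have h6 : c ^ 2 = 1 := by rw [pow_two]; nth_rewrite 1 [← h5]; exact inv_mul_cancel c
  have h7 := orderOf_dvd_of_pow_eq_one h6
  rw [hco] at h7
  exact hr2 ((Nat.prime_dvd_prime_iff_eq hr Nat.prime_two).1 h7)

end CfsgLib.CommValues
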