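import Cfsg.Agent.CommValues.Basic

/-!
In a solvable group satisfying `Cent` the corresponding lower central term lies in the Fitting
subgroup.
-/

set_option autoImplicit false

open scoped commutatorElement

namespace CfsgLib.CommValues

open Cfsg

variable {G : Type*} [Group G] [Finite G] {k : ℕ}

theorem Cent.mem_coreCent_of_mem (h : Cent k G) {p : ℕ} (hp : p.Prime) {x : G}
    (hx : x ∈ Val (⊤ : Subgroup G) k) (hxp : ∃ i, x ^ p ^ i = 1) : x ∈ coreCent p G := by
  rw [mem_coreCent]
  intro r hr hrp a ha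
  haveI : Fact r.Prime := ⟨hr⟩
  refine h x hx (pCore r G) (fun b hb => (Cfsg.pCore_normal r G).conj_mem b hb x) (fun b hb => ?_) a ha
  have hpg : IsPGroup r (pCore r G) := CfsgLib.Constrained.isPGroup_pCore
  obtain ⟨i, hi⟩ := hpg ⟨b, hb⟩
  exact coprime_of_pow ((Nat.coprime_primes hr hp).2 hrp)
    ⟨i, by simpa using congrArg Subtype.val hi⟩ hxp

/-- Values in a normal `p`-group modulo `F(G)` lie in `F(G)`. -/
theorem Cent.mem_fitting (h : Cent k G) {p : ℕ} (hp : p.Prime) (X : Subgroup G) [X.Normal]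
    (hX : ∀ a ∈ X, ∃ i, a ^ p ^ i ∈ fittingSubgroup G) {x : G}
    (hx : x ∈ Val (⊤ : Subgroup G) k) (hxp : ∃ i, x ^ p ^ i = 1) (hxX : x ∈ X) :
    x ∈ fittingSubgroup G := by
  haveI := coreCent_normal (G := G) p
  exact le_fitting_of_coreCent hp (D := X ⊓ coreCent p G) inf_le_right (fun a ha => hX a ha.1)
    ⟨hxX, h.mem_coreCent_of_mem hp hx hxp⟩

theorem Cent.isNilpotent_quotient (h : Cent k G) [Group.IsSolvable G] :
    Group.IsNilpotent (G ⧸ fittingSubgroup G) := by
  set F := fittingSubgroup G with hF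
  set π := QuotientGroup.mk' F with hπ
  haveI : Group.IsSolvable (G ⧸ F) :=
    Group.isSolvable_of_surjective (QuotientGroup.mk'_surjective F)
  -- elements of coprime prime power order act trivially on the cores of the quotient
  have hact : ∀ p : ℕ, p.Prime → ∀ q : ℕ, q.Prime → p ≠ q → ∀ z : G ⧸ F,
      (∃ i, z ^ q ^ i = 1) → ∀ a ∈ pCore p (G ⧸ F), Commute a z := by
    intro p hp q hq hpq z hz a ha
    haveI : Fact p.Prime := ⟨hp⟩
    haveI := Cfsg.pCore_normal p (G ⧸ F)
    set X := (pCore p (G ⧸ F)).comap π with hXdef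
    haveI : X.Normal := Subgroup.Normal.comap (Cfsg.pCore_normal p (G ⧸ F)) π
    have hX : ∀ b ∈ X, ∃ i, b ^ p ^ i ∈ F := by
      intro b hb
      obtain ⟨i, hi⟩ := CfsgLib.Constrained.isPGroup_pCore (p := p) (G := G ⧸ F) ⟨π b, hb⟩
      have hi' : π b ^ p ^ i = 1 := by simpa using congrArg Subtype.val hi
      exact ⟨i, (QuotientGroup.eq_one_iff _).1 ((map_pow π b _).trans hi')⟩
    obtain ⟨P⟩ : Nonempty (Sylow p X) := inferInstance
    -- lift `z` into the normaliser of `P`
    obtain ⟨z₀, rfl⟩ := QuotientGroup.mk'_surjective F z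
    have hfr : Subgroup.normalizer ((P : Subgroup X).map X.subtype : Set G) ⊔ X = ⊤ :=
      Sylow.normalizer_sup_eq_top P
    set T := (P : Subgroup X).map X.subtype with hT
    have hPX : (T.map π) = pCore p (G ⧸ F) := by
      refine le_antisymm ?_ fun c hc => ?_
      · rw [Subgroup.map_le_iff_le_comap, ← hXdef]
        exact Subgroup.map_subtype_le _
      obtain ⟨c₀, rfl⟩ := QuotientGroup.mk'_surjective F c
      let g : X →* G ⧸ F := π.comp X.subtype
      have hidx : ((P : Subgroup X) ⊔ g.ker).index = 1 := by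
        have h1 : ((P : Subgroup X) ⊔ g.ker).index ∣ Nat.card g.range := by
          rw [← Subgroup.index_ker]; exact Subgroup.index_dvd_of_le le_sup_right
        obtain ⟨n, hn⟩ := IsPGroup.iff_card.1 ((CfsgLib.Constrained.isPGroup_pCore (p := p) (G := G ⧸ F)).to_le
          (show g.range ≤ pCore p (G ⧸ F) by rintro _ ⟨b, rfl⟩; exact b.2))
        rw [hn] at h1
        exact Nat.eq_one_of_dvd_coprimes ((hp.coprime_iff_not_dvd.2 P.not_dvd_index).pow_left n) h1
          (Subgroup.index_dvd_of_le le_sup_left)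
      have hmem : (⟨c₀, hc⟩ : X) ∈ (P : Subgroup X) ⊔ g.ker := by
        rw [Subgroup.index_eq_one.1 hidx]; trivial
      obtain ⟨u, hu, v, hv, huv⟩ := Subgroup.mem_sup_of_normal_right.1 hmem
      refine ⟨u, ⟨u, hu, rfl⟩, ?_⟩
      rw [← show ((u * v : X) : G) = c₀ from congrArg Subtype.val huv, Subgroup.coe_mul, map_mul,
        show π (v : G) = 1 from hv, mul_one]
    have hz0 : z₀ ∈ Subgroup.normalizer (T : Set G) ⊔ X := hfr ▸ Subgroup.mem_top z₀
    obtain ⟨n, hn, x, hx, hnx⟩ := Subgroup.mem_sup_of_normal_right.1 hz0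
    -- replace `n` by a power of `q`-power order
    have hcomm : ∀ m : G, m ∈ Subgroup.normalizer (T : Set G) → (∃ i, m ^ q ^ i = 1) →
        ∀ c ∈ pCore p (G ⧸ F), Commute c (π m) := by
      intro m hm hmq c hc
      rw [← hPX] at hc
      obtain ⟨w, hw, rfl⟩ := hc
      have hwX : w ∈ X := Subgroup.map_subtype_le _ hw
      have hTp : IsPGroup p T := P.isPGroup'.map _
      have hmn : ∀ b ∈ T, m * b * m⁻¹ ∈ T := fun b hb => ((Subgroup.mem_normalizer_iff.1 hm) b).1 hb
      have hi : itc w m k ∈ T := itc_mem hw hmn k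
      obtain ⟨i, hi'⟩ := hTp ⟨_, hi⟩
      have hF' : itc w m k ∈ F := h.mem_fitting hp X hX
        (itc_mem_val (Subgroup.mem_top _) (Subgroup.mem_top _) k)
        ⟨i, by simpa using congrArg Subtype.val hi'⟩ (Subgroup.map_subtype_le _ hi)
      refine commute_of_itc_eq_one (W := T.map π) ⟨w, hw, rfl⟩ ?_ ?_ k ?_
      · rintro _ ⟨b, hb, rfl⟩
        exact ⟨m * b * m⁻¹, hmn b hb, by simp⟩
      · rintro _ ⟨b, hb, rfl⟩
        obtain ⟨j, hj⟩ := hTp ⟨b, hb⟩
        obtain ⟨i, hi⟩ := hmq
        exact coprime_of_pow ((Nat.coprime_primes hp hq).2 hpq)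
          ⟨j, by rw [← map_pow, show b ^ p ^ j = 1 by simpa using congrArg Subtype.val hj, map_one]⟩
          ⟨i, by rw [← map_pow, hi, map_one]⟩
      · rw [← map_itc]
        exact (QuotientGroup.eq_one_iff _).2 hF'
    -- `z` differs from the image of `n` by an element of the `p`-core
    have hxq : ∀ c ∈ pCore p (G ⧸ F), Commute c (π z₀) := by
      obtain ⟨e, he, heq⟩ := exists_part (QuotientGroup.mk' X) n hq (by
        obtain ⟨i, hi⟩ := hz
        refine ⟨i, ?_⟩
        have : QuotientGroup.mk' X n = QuotientGroup.mk' X z₀ := by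
          rw [← hnx, map_mul, show QuotientGroup.mk' X x = 1 from (QuotientGroup.eq_one_iff x).2 hx,
            mul_one]
        rw [this, ← map_pow, QuotientGroup.mk'_apply, QuotientGroup.eq_one_iff, hXdef,
          Subgroup.mem_comap, map_pow]
        rw [show π z₀ ^ q ^ i = 1 from hi]
        exact one_mem _)
      have hn' : n ^ e ∈ Subgroup.normalizer (T : Set G) := pow_mem hn e
      have hdiff : π ((n ^ e)⁻¹ * z₀) ∈ pCore p (G ⧸ F) := by
        change (n ^ e)⁻¹ * z₀ ∈ X
        rw [← QuotientGroup.eq, ← QuotientGroup.mk'_apply, ← QuotientGroup.mk'_apply, heq, ← hnx,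
          map_mul, show QuotientGroup.mk' X x = 1 from (QuotientGroup.eq_one_iff x).2 hx, mul_one]
      have hcm := hcomm _ hn' he
      -- `π z₀` is the product of commuting parts of coprime orders
      set u := π (n ^ e) with hu
      set d := π ((n ^ e)⁻¹ * z₀) with hd
      have hud : π z₀ = u * d := by rw [hu, hd, ← map_mul, mul_inv_cancel_left]
      have hcomm' : Commute u d := (hcm d hdiff).symm
      obtain ⟨i, hi⟩ := hz
      obtain ⟨j, hj⟩ := he
      obtain ⟨l, hl⟩ := CfsgLib.Constrained.isPGroup_pCore (p := p) (G := G ⧸ F) ⟨d, hdiff⟩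
      have hl' : d ^ p ^ l = 1 := by simpa using congrArg Subtype.val hl
      have hu' : u ^ q ^ j = 1 := by rw [hu, ← map_pow, hj, map_one]
      have hdq : d ^ q ^ (i + j) = 1 := by
        have h1 : (u * d) ^ q ^ (i + j) = 1 := by
          rw [← hud, pow_add, pow_mul, show π z₀ ^ q ^ i = 1 from hi, one_pow]
        rw [hcomm'.mul_pow, pow_add, mul_comm (q ^ i), pow_mul, hu', one_pow, one_mul,
          mul_comm, ← pow_add] at h1
        exact h1
      have hd1 : d = 1 := orderOf_eq_one_iff.1 (Nat.eq_one_of_dvd_coprimes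
        (((Nat.coprime_primes hp hq).2 hpq).pow l (i + j)) (orderOf_dvd_of_pow_eq_one hl')
        (orderOf_dvd_of_pow_eq_one hdq))
      rw [hud, hd1, mul_one]
      exact hcm
    exact hxq a ha
  -- the quotient equals its Fitting subgroup
  suffices htop : fittingSubgroup (G ⧸ F) = ⊤ by
    have : Group.IsNilpotent (⊤ : Subgroup (G ⧸ F)) := htop ▸ CfsgLib.Constrained.isNilpotent_fitting
    exact Group.nilpotent_of_surjective (Subgroup.topEquiv : (⊤ : Subgroup (G ⧸ F)) ≃* G ⧸ F).toMonoidHom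
      Subgroup.topEquiv.surjective
  refine top_le_iff.1 (CfsgLib.MaxCentralizers.le_of_primePow fun a _ q i hq ha => ?_)
  haveI := coreCent_normal (G := G ⧸ F) q
  refine le_fitting_of_coreCent hq (D := coreCent q (G ⧸ F)) le_rfl (fun b hb => ?_)
    (mem_coreCent.2 fun p hp hpq c hc => hact p hp q hq hpq a ⟨i, ha ▸ pow_orderOf_eq_one a⟩ c hc)
  -- modulo the Fitting subgroup an element of `coreCent q` is a `q`-element
  obtain ⟨c, d, hd, hcd⟩ := Nat.exists_eq_pow_mul_and_not_dvd (orderOf_pos b).ne' q hq.ne_one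
  refine ⟨c, CfsgLib.MaxCentralizers.le_of_primePow (X := Subgroup.zpowers (b ^ q ^ c))
    (Y := fittingSubgroup (G ⧸ F)) (fun w hw r j hr hw' => ?_) (Subgroup.mem_zpowers _)⟩
  rcases Nat.eq_zero_or_pos j with rfl | hj
  · rw [pow_zero, orderOf_eq_one_iff] at hw'
    exact hw' ▸ one_mem _
  have hrq : r ≠ q := fun e => by
    have h1 := orderOf_dvd_of_mem_zpowers hw
    rw [orderOf_pow, hcd, Nat.gcd_eq_right (dvd_mul_right _ _),
      Nat.mul_div_cancel_left _ (pow_pos hq.pos c), hw', e] at h1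
    exact hd ((dvd_pow_self q hj.ne').trans h1)
  refine CfsgLib.Constrained.centralizer_fitting_le ?_
  have hwall : ∀ p : ℕ, p.Prime → ∀ a ∈ pCore p (G ⧸ F), Commute a w := by
    intro p hp a ha
    by_cases hpr : p = r
    · exact (mem_coreCent.1 ((Subgroup.zpowers_le.2 (pow_mem hb _)) hw)) p hp
        (hpr ▸ hrq) a ha
    · exact hact p hp r hr hpr w ⟨j, hw' ▸ pow_orderOf_eq_one w⟩ a ha
  have hle : fittingSubgroup (G ⧸ F) ≤ Subgroup.centralizer ({w} : Set (G ⧸ F)) := by
    rw [CfsgLib.Constrained.fitting_eq_iSup_pCore]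
    exact iSup₂_le fun p hp a ha =>
      Subgroup.mem_centralizer_singleton_iff.2 (hwall p hp a ha).eq
  exact Subgroup.mem_centralizer_iff.2 fun a ha =>
    Subgroup.mem_centralizer_singleton_iff.1 (hle ha)

/-- **The lower central term lies in the Fitting subgroup.** -/
theorem Cent.lcs_le_fitting (h : Cent k G) [Group.IsSolvable G] :
    (⊤ : Subgroup G).lowerCentralSeries k ≤ fittingSubgroup G := by
  set F := fittingSubgroup G with hF
  set π := QuotientGroup.mk' F with hπ
  haveI := h.isNilpotent_quotient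
  have hnor : ∀ {p : ℕ} [Fact p.Prime] (P : Sylow p (G ⧸ F)), (P : Subgroup (G ⧸ F)).Normal :=
    fun {p} _ P => Sylow.normal_of_normalizerCondition Group.normalizerCondition_of_isNilpotent P
  have hQ : ∀ p : ℕ, p.Prime → ∀ Q : Sylow p (G ⧸ F),
      (Q : Subgroup (G ⧸ F)).lowerCentralSeries k = ⊥ := by
    intro p hp Q
    haveI : Fact p.Prime := ⟨hp⟩
    haveI : (Q : Subgroup (G ⧸ F)).Normal := hnor Q
    haveI : ((Q : Subgroup (G ⧸ F)).comap π).Normal := Subgroup.Normal.comap inferInstance π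
    obtain ⟨P⟩ : Nonempty (Sylow p G) := inferInstance
    have hPQ : (P : Subgroup G).map π = Q := by
      haveI : Subsingleton (Sylow p (G ⧸ F)) := (Sylow.unique_of_normal Q inferInstance).instSubsingleton
      have := P.mapSurjective (QuotientGroup.mk'_surjective F)
      exact congrArg Sylow.toSubgroup (Subsingleton.elim (P.mapSurjective (QuotientGroup.mk'_surjective F)) Q)
    rw [← hPQ, ← Subgroup.map_lowerCentralSeries, Subgroup.map_eq_bot_iff, QuotientGroup.ker_mk']
    refine (lcs_le_closure_val _ k).trans ((Subgroup.closure_le _).2 fun v hv => ?_)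
    have hvP := val_subset _ _ hv
    obtain ⟨i, hi⟩ := P.isPGroup' ⟨v, hvP⟩
    refine h.mem_fitting hp ((Q : Subgroup (G ⧸ F)).comap π) (fun a ha => ?_)
      (val_mono le_top k hv) ⟨i, by simpa using congrArg Subtype.val hi⟩
      (hPQ.le ⟨v, hvP, rfl⟩)
    obtain ⟨j, hj⟩ := Q.isPGroup' ⟨π a, ha⟩
    have hj' : π a ^ p ^ j = 1 := by simpa using congrArg Subtype.val hj
    exact ⟨j, (QuotientGroup.eq_one_iff _).1 ((map_pow π a _).trans hj')⟩
  let e := Sylow.directProductOfNormal (G := G ⧸ F) hnor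
  have hbot : (⊤ : Subgroup (G ⧸ F)).lowerCentralSeries k = ⊥ := by
    have h1 : ∀ (p : (Nat.card (G ⧸ F)).primeFactors) (Q : Sylow p.1 (G ⧸ F)),
        (⊤ : Subgroup (Q : Subgroup (G ⧸ F))).lowerCentralSeries k = ⊥ := by
      intro p Q
      refine Subgroup.map_injective (Q : Subgroup (G ⧸ F)).subtype_injective ?_
      rw [Subgroup.map_bot, Subgroup.top_subtype_lowerCentralSeries]
      exact hQ p.1 (Nat.prime_of_mem_primeFactors p.2) Q
    have h2 : (⊤ : Subgroup (∀ (p : (Nat.card (G ⧸ F)).primeFactors) (Q : Sylow p.1 (G ⧸ F)),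
        (Q : Subgroup (G ⧸ F)))).lowerCentralSeries k = ⊥ := by
      refine eq_bot_iff.2 fun x hx => ?_
      rw [Subgroup.mem_bot]
      funext p Q
      have h3 := Subgroup.lowerCentralSeries.map
        ((Pi.evalMonoidHom (fun Q : Sylow p.1 (G ⧸ F) => (Q : Subgroup (G ⧸ F))) Q).comp
          (Pi.evalMonoidHom (fun p : (Nat.card (G ⧸ F)).primeFactors =>
            ∀ Q : Sylow p.1 (G ⧸ F), (Q : Subgroup (G ⧸ F))) p)) k ⟨x, hx, rfl⟩
      rwa [h1, Subgroup.mem_bot] at h3
    refine eq_bot_iff.2 fun x hx => ?_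
    rw [Subgroup.mem_bot]
    have h3 := Subgroup.lowerCentralSeries.map e.symm.toMonoidHom k ⟨x, hx, rfl⟩
    rw [h2, Subgroup.mem_bot] at h3
    exact e.symm.injective (h3.trans (map_one _).symm)
  intro x hx
  refine (QuotientGroup.eq_one_iff x).1 ?_
  have h4 := Subgroup.lowerCentralSeries.map π k ⟨x, hx, rfl⟩
  rwa [hbot, Subgroup.mem_bot] at h4

theorem Cent.isNilpotent_lcs (h : Cent k G) [Group.IsSolvable G] :
    Group.IsNilpotent ((⊤ : Subgroup G).lowerCentralSeries k) := by
  haveI : Group.IsNilpotent (fittingSubgroup G) := CfsgLib.Constrained.isNilpotent_fitting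
  exact Group.nilpotent_of_mulEquiv (Subgroup.subgroupOfEquivOfLe h.lcs_le_fitting)

end CfsgLib.CommValues
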